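import Mathlib

/-!
# Block TP (S3536): the eigenvalue lemma BUDGET (helper202)

`Cl q R` : the finite set `R` of nonzero elements of a field is closed under `x ↦ x ^ q` (injective on `R`) and inversion.

* `Cl.exists_period` : the length `l` of the orbit of `x ∈ R`: `x ^ q ^ j = x ↔ l ∣ j`;
* `Cl.orbit` : the orbit `O` as a finset of cardinality `l`, and the dichotomy: `x⁻¹ ∉ O`, `2 l ≤ |R|`, or
  `x ^ (q ^ (l / 2) + 1) = 1` or `x ^ 2 = 1`;
* `budget` : if `|R| ≤ 2 ^ (k + 1)`, `k ≥ 2`, and for every `1 ≤ i < k` some element of `R` has order divisible by an odd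
  prime divisor of `q ^ 2 ^ i + 1`, then `x ^ (q ^ 2 ^ k - 1) = 1` for all `x ∈ R`.
-/

set_option autoImplicit false

namespace Cfsg.Agent.H202.TP

variable {K : Type*} [Field K] {q : ℕ}

structure Cl (q : ℕ) (R : Finset K) : Prop where
  ne : ∀ x ∈ R, x ≠ 0
  frob : ∀ x ∈ R, x ^ q ∈ R
  inv : ∀ x ∈ R, x⁻¹ ∈ R
  inj : ∀ x ∈ R, ∀ y ∈ R, x ^ q = y ^ q → x = y

variable {R : Finset K}

theorem Cl.pow_mem (h : Cl q R) {x : K} (hx : x ∈ R) (j : ℕ) : x ^ q ^ j ∈ R := by
  induction j with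
  | zero => simpa using hx
  | succ j ih =>
    rw [pow_succ, pow_mul]
    exact h.frob _ ih

theorem Cl.cancel (h : Cl q R) {x y : K} (hx : x ∈ R) (hy : y ∈ R) (i : ℕ) (he : x ^ q ^ i = y ^ q ^ i) : x = y := by
  induction i with
  | zero => simpa using he
  | succ i ih =>
    rw [pow_succ, pow_mul, pow_mul] at he
    exact ih (h.inj _ (h.pow_mem hx i) _ (h.pow_mem hy i) he)

/-- the length of the orbit -/
theorem Cl.exists_period (h : Cl q R) {x : K} (hx : x ∈ R) : ∃ l : ℕ, 0 < l ∧ ∀ j, x ^ q ^ j = x ↔ l ∣ j := by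
  have hit : ∀ j, (fun y : K => y ^ q)^[j] x = x ^ q ^ j := fun j => by rw [pow_iterate]
  refine ⟨Function.minimalPeriod (fun y : K => y ^ q) x, ?_, ?_⟩
  · apply Function.minimalPeriod_pos_of_mem_periodicPts
    obtain ⟨i, j, hij, he⟩ := Finite.exists_ne_map_eq_of_infinite
      (fun j : ℕ => (⟨x ^ q ^ j, h.pow_mem hx j⟩ : {y // y ∈ R}))
    have he' : x ^ q ^ i = x ^ q ^ j := congrArg Subtype.val he
    have key : ∀ i j : ℕ, i < j → x ^ q ^ i = x ^ q ^ j → x ∈ Function.periodicPts (fun y : K => y ^ q) := by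
      intro i j hij he
      obtain ⟨d, rfl⟩ : ∃ d, j = d + i := ⟨j - i, by omega⟩
      rw [pow_add, pow_mul] at he
      have h1 := h.cancel hx (h.pow_mem hx d) i he
      exact Function.mk_mem_periodicPts (n := d) (by omega) (by
        change (fun y : K => y ^ q)^[d] x = x
        rw [hit, ← h1])
    rcases lt_or_gt_of_ne hij with h1 | h1
    · exact key i j h1 he'
    · exact key j i h1 he'.symm
  · intro j
    rw [← Function.isPeriodicPt_iff_minimalPeriod_dvd]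
    change _ ↔ (fun y : K => y ^ q)^[j] x = x
    rw [hit]

theorem pow_sub_one_iff {x : K} (hx : x ≠ 0) {N : ℕ} (hN : 1 ≤ N) : x ^ (N - 1) = 1 ↔ x ^ N = x := by
  obtain ⟨M, rfl⟩ : ∃ M, N = M + 1 := ⟨N - 1, by omega⟩
  rw [Nat.add_sub_cancel, pow_succ]
  exact ⟨fun h => by rw [h, one_mul], fun h => mul_right_cancel₀ hx (by rw [h, one_mul])⟩

/-- **The orbit.** -/
theorem Cl.orbit [DecidableEq K] (h : Cl q R) {x : K} (hx : x ∈ R) {l : ℕ} (hl : 0 < l) (hlx : ∀ j, x ^ q ^ j = x ↔ l ∣ j) :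
    ((Finset.range l).image fun j => x ^ q ^ j).card = l ∧ ((Finset.range l).image fun j => x ^ q ^ j) ⊆ R ∧
      (∀ j, x ^ q ^ j ∈ ((Finset.range l).image fun j => x ^ q ^ j)) := by
  have hadd : ∀ i j, x ^ q ^ (i + j) = (x ^ q ^ i) ^ q ^ j := fun i j => by rw [pow_add, pow_mul]
  refine ⟨?_, ?_, ?_⟩
  · rw [Finset.card_image_of_injOn, Finset.card_range]
    have key : ∀ i j : ℕ, i < j → j < l → x ^ q ^ i = x ^ q ^ j → False := by
      intro i j hij hj he
      obtain ⟨d, rfl⟩ : ∃ d, j = d + i := ⟨j - i, by omega⟩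
      rw [hadd] at he
      have h1 := h.cancel hx (h.pow_mem hx d) i he
      have h2 := Nat.le_of_dvd (by omega) ((hlx d).1 h1.symm)
      omega
    intro i hi j hj he
    simp only [Finset.coe_range, Set.mem_Iio] at hi hj
    rcases lt_trichotomy i j with h1 | h1 | h1
    · exact (key i j h1 hj he).elim
    · exact h1
    · exact (key j i h1 hi he.symm).elim
  · intro y hy
    obtain ⟨j, -, rfl⟩ := Finset.mem_image.1 hy
    exact h.pow_mem hx j
  · intro j
    refine Finset.mem_image.2 ⟨j % l, Finset.mem_range.2 (Nat.mod_lt _ hl), ?_⟩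
    change x ^ q ^ (j % l) = x ^ q ^ j
    conv_rhs => rw [← Nat.div_add_mod j l, hadd, (hlx (l * (j / l))).2 (dvd_mul_right _ _)]

/-- the inverse -/
theorem Cl.inv_dichotomy [DecidableEq K] (h : Cl q R) {x : K} (hx : x ∈ R) {l : ℕ} (hl : 0 < l)
    (hlx : ∀ j, x ^ q ^ j = x ↔ l ∣ j) (hq : 1 ≤ q) :
    (x⁻¹ ∈ ((Finset.range l).image fun j => x ^ q ^ j) ∧ (x ^ 2 = 1 ∨ ∃ j, l = 2 * j ∧ x ^ (q ^ j + 1) = 1)) ∨
      (x⁻¹ ∉ ((Finset.range l).image fun j => x ^ q ^ j) ∧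
        (((Finset.range l).image fun j => x ^ q ^ j) ∪ ((Finset.range l).image fun j => (x⁻¹) ^ q ^ j)).card = 2 * l ∧
        (((Finset.range l).image fun j => x ^ q ^ j) ∪ ((Finset.range l).image fun j => (x⁻¹) ^ q ^ j)) ⊆ R) := by
  have hx0 := h.ne x hx
  obtain ⟨hc, hR, hm⟩ := h.orbit hx hl hlx
  by_cases hin : x⁻¹ ∈ ((Finset.range l).image fun j => x ^ q ^ j)
  · left
    refine ⟨hin, ?_⟩
    obtain ⟨j, hj, he⟩ := Finset.mem_image.1 hin
    rw [Finset.mem_range] at hj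
    change x ^ q ^ j = x⁻¹ at he
    have h1 : x ^ q ^ (j + j) = x := by
      rw [pow_add, pow_mul, he, inv_pow, he, inv_inv]
    have h2 := (hlx _).1 h1
    obtain ⟨c, hc2⟩ := h2
    rcases Nat.eq_zero_or_pos j with h0 | h0
    · left
      subst h0
      rw [pow_zero, pow_one] at he
      rw [pow_two]
      nth_rw 1 [he]
      exact inv_mul_cancel₀ hx0
    · right
      refine ⟨j, ?_, ?_⟩
      · have : c = 1 := by
          by_contra hne
          rcases Nat.lt_or_ge c 1 with h3 | h3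
          · have : c = 0 := by omega
            subst this
            omega
          · have : l * 2 ≤ l * c := Nat.mul_le_mul_left _ (by omega)
            omega
        subst this
        omega
      · rw [pow_succ, he]
        exact inv_mul_cancel₀ hx0
  · right
    refine ⟨hin, ?_, ?_⟩
    · have hlx' : ∀ j, (x⁻¹) ^ q ^ j = x⁻¹ ↔ l ∣ j := fun j => by
        rw [inv_pow, inv_inj]
        exact hlx j
      obtain ⟨hc', hR', hm'⟩ := h.orbit (h.inv x hx) hl hlx'
      rw [Finset.card_union_of_disjoint, hc, hc']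
      · ring
      · rw [Finset.disjoint_left]
        intro y hy hy'
        obtain ⟨i, hi, rfl⟩ := Finset.mem_image.1 hy
        obtain ⟨j, hj, he⟩ := Finset.mem_image.1 hy'
        rw [Finset.mem_range] at hi hj
        change (x⁻¹) ^ q ^ j = x ^ q ^ i at he
        apply hin
        -- `x⁻¹ = x ^ q ^ (i + (l - j))`
        have h1 : x⁻¹ = x ^ q ^ (i + (l - j)) := by
          rw [pow_add, pow_mul, ← he, ← pow_mul, ← pow_add, Nat.add_sub_cancel' hj.le]
          exact ((hlx' l).2 dvd_rfl).symm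
        rw [h1]
        exact hm _
    · intro y hy
      rcases Finset.mem_union.1 hy with h1 | h1
      · exact hR h1
      · obtain ⟨j, -, rfl⟩ := Finset.mem_image.1 h1
        exact h.pow_mem (h.inv x hx) j

/-- an odd prime divisor of `q ^ 2 ^ i + 1` dividing the order of `x` gives `2 ^ (i + 1) ∣ l` -/
theorem two_pow_dvd_period {x : K} (hx0 : x ≠ 0) (hq : 1 ≤ q) {l : ℕ} (hlx : ∀ j, x ^ q ^ j = x ↔ l ∣ j) {s i : ℕ}
    (hs : s.Prime) (hs2 : s ≠ 2) (hsd : s ∣ q ^ 2 ^ i + 1) (hsx : s ∣ orderOf x) : 2 ^ (i + 1) ∣ l := by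
  have hs' := Fact.mk hs
  have h1 : x ^ (q ^ l - 1) = 1 := (pow_sub_one_iff hx0 (Nat.one_le_pow _ _ hq)).2 ((hlx l).2 dvd_rfl)
  have h2 : s ∣ q ^ l - 1 := hsx.trans (orderOf_dvd_of_pow_eq_one h1)
  have h3 : ((q : ZMod s)) ^ 2 ^ i = -1 := by
    have h4 : ((q ^ 2 ^ i + 1 : ℕ) : ZMod s) = 0 := (ZMod.natCast_eq_zero_iff _ _).2 hsd
    push_cast at h4
    exact eq_neg_of_add_eq_zero_left h4
  have : Fact (2 < s) := ⟨lt_of_le_of_ne hs.two_le (Ne.symm hs2)⟩
  have hne : ((q : ZMod s)) ^ 2 ^ i ≠ 1 := by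
    rw [h3]
    exact ZMod.neg_one_ne_one
  have h5 : orderOf (q : ZMod s) = 2 ^ (i + 1) := orderOf_eq_prime_pow (p := 2) (n := i) hne
    (by rw [pow_succ, pow_mul, h3]; norm_num)
  rw [← h5, orderOf_dvd_iff_pow_eq_one]
  have h6 : ((q ^ l - 1 : ℕ) : ZMod s) = 0 := (ZMod.natCast_eq_zero_iff _ _).2 h2
  rw [Nat.cast_sub (Nat.one_le_pow _ _ hq)] at h6
  push_cast at h6
  exact sub_eq_zero.1 h6

/-- at most four elements -/
theorem Cl.four (h : Cl q R) (hq : Odd q) (hR : R.card ≤ 4) {x : K} (hx : x ∈ R) : x ^ q ^ 4 = x := by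
  classical
  obtain ⟨l, hl, hlx⟩ := h.exists_period hx
  rw [hlx]
  obtain ⟨hc, hO, hm⟩ := h.orbit hx hl hlx
  have h4 : l ≤ 4 := by
    rw [← hc]
    exact (Finset.card_le_card hO).trans hR
  have h3 : l ≠ 3 := by
    intro h3
    rcases h.inv_dichotomy hx hl hlx hq.pos with ⟨-, h5 | ⟨j, hj, -⟩⟩ | ⟨-, h5, h6⟩
    · have h7 : x ^ q ^ 1 = x := by
        obtain ⟨c, rfl⟩ := hq
        rw [pow_one, pow_succ, pow_mul, h5, one_pow, one_mul]
      have := (hlx 1).1 h7
      rw [h3] at this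
      exact absurd (Nat.le_of_dvd (by norm_num) this) (by norm_num)
    · omega
    · have := Finset.card_le_card h6
      rw [h5] at this
      omega
  have : l = 1 ∨ l = 2 ∨ l = 4 := by omega
  rcases this with rfl | rfl | rfl <;> decide

/-- odd primes divide at most one of the numbers `q ^ 2 ^ i + 1` -/
theorem not_dvd_levels {s i j : ℕ} (hq : 1 ≤ q) (hs : s.Prime) (hs2 : s ≠ 2) (hij : i < j) (h1 : s ∣ q ^ 2 ^ i + 1)
    (h2 : s ∣ q ^ 2 ^ j + 1) : False := by
  have h3 : q ^ 2 ^ i + 1 ∣ q ^ 2 ^ j - 1 := by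
    have h4 : q ^ 2 ^ i + 1 ∣ q ^ 2 ^ (i + 1) - 1 := by
      refine ⟨q ^ 2 ^ i - 1, ?_⟩
      have := Nat.sq_sub_sq (q ^ 2 ^ i) 1
      rw [← pow_mul, ← pow_succ] at this
      simpa using this
    refine h4.trans ?_
    obtain ⟨d, rfl⟩ : ∃ d, j = i + 1 + d := ⟨j - (i + 1), by omega⟩
    rw [pow_add 2 (i + 1) d, pow_mul]
    simpa using Nat.sub_dvd_pow_sub_pow (q ^ 2 ^ (i + 1)) 1 (2 ^ d)
  have h5 := Nat.dvd_sub h2 (h1.trans h3)
  have h6 : 1 ≤ q ^ 2 ^ j := Nat.one_le_pow _ _ hq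
  rw [show q ^ 2 ^ j + 1 - (q ^ 2 ^ j - 1) = 2 by omega] at h5
  exact hs2 ((Nat.prime_dvd_prime_iff_eq hs Nat.prime_two).1 h5)

theorem orderOf_conj (h : Cl q R) {x : K} (hx : x ∈ R) (j : ℕ) : orderOf (x ^ q ^ j) = orderOf x := by
  apply Nat.dvd_antisymm (orderOf_pow_dvd _)
  obtain ⟨l, hl, hlx⟩ := h.exists_period hx
  -- `x` is a power of `x ^ q ^ j`
  obtain ⟨i, hi⟩ : ∃ i, l ∣ j + i := ⟨(l - j % l), by
    have h1 := Nat.div_add_mod j l
    have h2 := (Nat.mod_lt j hl).le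
    refine ⟨j / l + 1, ?_⟩
    have h3 : l * (j / l + 1) = l * (j / l) + l := by ring
    omega⟩
  have h3 : (x ^ q ^ j) ^ q ^ i = x := by
    rw [← pow_mul, ← pow_add]
    exact (hlx _).2 hi
  conv_lhs => rw [← h3]
  exact orderOf_pow_dvd _

/-- **BUDGET.** -/
theorem budget' (hq : Odd q) : ∀ (k : ℕ), 1 ≤ k → ∀ (R : Finset K), Cl q R → R.card ≤ 2 ^ (k + 1) →
    (∀ i, 1 ≤ i → i < k → ∃ s x, s.Prime ∧ s ≠ 2 ∧ s ∣ q ^ 2 ^ i + 1 ∧ x ∈ R ∧ s ∣ orderOf x) →
    ∀ x ∈ R, x ^ q ^ 2 ^ (max k 2) = x := by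
  classical
  intro k hk
  induction k, hk using Nat.le_induction with
  | base =>
    intro R h hR _ x hx
    exact h.four hq (by simpa using hR) hx
  | succ k hk ih =>
    intro R h hR hw
    have hq1 := hq.pos
    obtain ⟨s, x, hs, hs2, hsd, hx, hsx⟩ := hw k hk (by omega)
    have hmax : max (k + 1) 2 = k + 1 := by omega
    rw [hmax]
    obtain ⟨l, hl, hlx⟩ := h.exists_period hx
    obtain ⟨hc, hO, hm⟩ := h.orbit hx hl hlx
    have hx0 := h.ne x hx
    have hel : 2 ^ (k + 1) ∣ l := two_pow_dvd_period hx0 hq1 hlx hs hs2 hsd hsx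
    obtain ⟨c, hcl⟩ := hel
    have hc0 : 0 < c := by
      rcases Nat.eq_zero_or_pos c with h0 | h0
      · rw [h0, mul_zero] at hcl; omega
      · exact h0
    have he0 : 0 < 2 ^ (k + 1) := by positivity
    have hcard2 : R.card ≤ 2 * 2 ^ (k + 1) := by
      rw [pow_succ] at hR
      omega
    rcases h.inv_dichotomy hx hl hlx hq1 with ⟨hin, h5 | ⟨j, hj, hxj⟩⟩ | ⟨hin, h5, h6⟩
    · -- `x ^ 2 = 1`
      exfalso
      have h6 : s ∣ 2 := hsx.trans (orderOf_dvd_of_pow_eq_one h5)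
      exact hs2 ((Nat.prime_dvd_prime_iff_eq hs Nat.prime_two).1 h6)
    · -- the orbit is closed under inversion
      have hlR : l ≤ 2 * 2 ^ (k + 1) := by
        rw [← hc]
        exact (Finset.card_le_card hO).trans hcard2
      have hc2 : c ≤ 2 := by
        rw [hcl, mul_comm 2 (2 ^ (k + 1))] at hlR
        exact Nat.le_of_mul_le_mul_left hlR he0
      have hc1 : c = 1 := by
        by_contra hne
        have hc3 : c = 2 := by omega
        subst hc3
        have hj2 : j = 2 ^ (k + 1) := by omega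
        subst hj2
        exact not_dvd_levels hq1 hs hs2 (Nat.lt_succ_self k) hsd (hsx.trans (orderOf_dvd_of_pow_eq_one hxj))
      subst hc1
      rw [mul_one] at hcl
      have hj2 : j = 2 ^ k := by
        rw [hcl, pow_succ] at hj
        omega
      subst hj2
      have hox : orderOf x ∣ q ^ 2 ^ k + 1 := orderOf_dvd_of_pow_eq_one hxj
      set O := ((Finset.range l).image fun j => x ^ q ^ j) with hOd
      have hOo : ∀ y ∈ O, orderOf y ∣ q ^ 2 ^ k + 1 := by
        intro y hy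
        obtain ⟨j, -, rfl⟩ := Finset.mem_image.1 hy
        rw [orderOf_conj h hx]
        exact hox
      have hOinv : ∀ y ∈ O, y⁻¹ ∈ O := by
        intro y hy
        obtain ⟨j, -, rfl⟩ := Finset.mem_image.1 hy
        obtain ⟨i, -, hi⟩ := Finset.mem_image.1 hin
        change x ^ q ^ i = x⁻¹ at hi
        change (x ^ q ^ j)⁻¹ ∈ O
        rw [← inv_pow, ← hi, ← pow_mul, ← pow_add]
        exact hm _
      have hOfrob : ∀ y, y ∈ R → y ^ q ∈ O → y ∈ O := by
        intro y hy hyO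
        obtain ⟨i, -, hi⟩ := Finset.mem_image.1 hyO
        change x ^ q ^ i = y ^ q at hi
        -- `x ^ q ^ i = (x ^ q ^ (i + l - 1)) ^ q`
        have h7 : (x ^ q ^ (i + (l - 1))) ^ q = y ^ q := by
          rw [← hi, ← pow_mul, ← pow_succ, show i + (l - 1) + 1 = l + i by omega, pow_add, pow_mul,
            (hlx l).2 dvd_rfl]
        have h8 := h.inj _ (h.pow_mem hx _) _ hy h7
        rw [← h8]
        exact hm _
      -- the complement
      have hR' : Cl q (R \ O) := by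
        refine ⟨fun y hy => h.ne y (Finset.mem_sdiff.1 hy).1, ?_, ?_, ?_⟩
        · intro y hy
          obtain ⟨hy1, hy2⟩ := Finset.mem_sdiff.1 hy
          exact Finset.mem_sdiff.2 ⟨h.frob y hy1, fun h7 => hy2 (hOfrob y hy1 h7)⟩
        · intro y hy
          obtain ⟨hy1, hy2⟩ := Finset.mem_sdiff.1 hy
          refine Finset.mem_sdiff.2 ⟨h.inv y hy1, fun h7 => hy2 ?_⟩
          have := hOinv _ h7
          rwa [inv_inv] at this
        · intro y hy z hz
          exact h.inj y (Finset.mem_sdiff.1 hy).1 z (Finset.mem_sdiff.1 hz).1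
      have hcR' : (R \ O).card ≤ 2 ^ (k + 1) := by
        rw [Finset.card_sdiff_of_subset hO, hc, hcl]
        omega
      have hw' : ∀ i, 1 ≤ i → i < k → ∃ s x, s.Prime ∧ s ≠ 2 ∧ s ∣ q ^ 2 ^ i + 1 ∧ x ∈ R \ O ∧ s ∣ orderOf x := by
        intro i hi hik
        obtain ⟨t, y, ht, ht2, htd, hy, hty⟩ := hw i hi (by omega)
        refine ⟨t, y, ht, ht2, htd, Finset.mem_sdiff.2 ⟨hy, fun h7 => ?_⟩, hty⟩
        exact not_dvd_levels hq1 ht ht2 hik htd (hty.trans (hOo y h7))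
      have ih' := ih (R \ O) hR' hcR' hw'
      intro y hy
      by_cases hyO : y ∈ O
      · obtain ⟨i, -, rfl⟩ := Finset.mem_image.1 hyO
        change (x ^ q ^ i) ^ q ^ 2 ^ (k + 1) = x ^ q ^ i
        rw [← pow_mul, mul_comm, pow_mul, ← hcl, (hlx l).2 dvd_rfl]
      · have h7 := ih' y (Finset.mem_sdiff.2 ⟨hy, hyO⟩)
        obtain ⟨l', hl', hly'⟩ := h.exists_period hy
        rw [hly'] at h7 ⊢
        refine h7.trans (pow_dvd_pow 2 ?_)
        omega
    · -- the orbit and its inverse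
      have h7 : 2 * l ≤ 2 * 2 ^ (k + 1) := by
        rw [← h5]
        exact (Finset.card_le_card h6).trans hcard2
      have hc1 : c = 1 := by
        rw [hcl] at h7
        have : 2 ^ (k + 1) * c ≤ 2 ^ (k + 1) * 1 := by omega
        have := Nat.le_of_mul_le_mul_left this he0
        omega
      subst hc1
      rw [mul_one] at hcl
      have h8 : (((Finset.range l).image fun j => x ^ q ^ j) ∪ ((Finset.range l).image fun j => (x⁻¹) ^ q ^ j)) = R := by
        apply Finset.eq_of_subset_of_card_le h6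
        rw [h5, hcl]
        exact hcard2
      intro y hy
      rw [← h8] at hy
      have h9 : x ^ q ^ 2 ^ (k + 1) = x := by
        rw [← hcl]
        exact (hlx l).2 dvd_rfl
      rcases Finset.mem_union.1 hy with hy | hy
      · obtain ⟨i, -, rfl⟩ := Finset.mem_image.1 hy
        change (x ^ q ^ i) ^ q ^ 2 ^ (k + 1) = x ^ q ^ i
        rw [← pow_mul, mul_comm, pow_mul, h9]
      · obtain ⟨i, -, rfl⟩ := Finset.mem_image.1 hy
        change ((x⁻¹) ^ q ^ i) ^ q ^ 2 ^ (k + 1) = (x⁻¹) ^ q ^ i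
        rw [← pow_mul, mul_comm, pow_mul, inv_pow, h9]

/-- **BUDGET.** -/
theorem budget (hq : Odd q) {k : ℕ} (hk : 2 ≤ k) {R : Finset K} (h : Cl q R) (hR : R.card ≤ 2 ^ (k + 1))
    (hw : ∀ i, 1 ≤ i → i < k → ∃ s x, s.Prime ∧ s ≠ 2 ∧ s ∣ q ^ 2 ^ i + 1 ∧ x ∈ R ∧ s ∣ orderOf x) {x : K}
    (hx : x ∈ R) : x ^ (q ^ 2 ^ k - 1) = 1 := by
  rw [pow_sub_one_iff (h.ne x hx) (Nat.one_le_pow _ _ hq.pos)]
  have := budget' hq k (by omega) R h hR hw x hx
  rwa [max_eq_left hk] at this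

end Cfsg.Agent.H202.TP
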