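import Cfsg.Agent.H202.T.Num

/-!
# Block TP (S3536): the composition factor of a group isospectral to `PSp_{2n}(q)`, `Ω_{2n+1}(q)`,
# `n = 2 ^ k ≥ 8`, `q = p ^ a`, `a` odd: interface (helper202)

* `mn q k = (q ^ n + 1) / 2`, equal to `mm (q ^ (n / 4))`: all the lemmas of `H202/T/Defs`, `H202/T/Num` on `mm q` apply with
  `q ^ 2 ^ (k - 2)` for `q`;
* `TK p q k S` : what is used of the composition factor.
-/

set_option autoImplicit false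
set_option linter.unusedSectionVars false

namespace Cfsg.Agent.H202.TP

open Cfsg.Agent.H202.T

/-- `(q ^ n + 1) / 2`, `n = 2 ^ k` -/
def mn (q k : ℕ) : ℕ := (q ^ 2 ^ k + 1) / 2

/-- What is used of the composition factor in the elimination. -/
structure TK (p q k : ℕ) (S : Type*) [Group S] : Prop where
  prime : p.Prime
  ne_two : p ≠ 2
  pow : ∃ a, Odd a ∧ q = p ^ a
  hk : 3 ≤ k
  mem : ∃ x : S, orderOf x = mn q k
  /-- isolation -/
  iso : ∀ (r : ℕ) (x : S), r.Prime → r ∣ mn q k → r ∣ orderOf x → orderOf x ∣ mn q k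
  /-- the powers of 2 -/
  two : ∀ (j : ℕ) (x : S), 2 ^ j ∣ orderOf x → 2 ^ j ∣ mn q k - 1
  /-- the torus -/
  tor : ∀ x : S, (∀ i, 1 ≤ i → i < k → ∃ s, s.Prime ∧ s ≠ 2 ∧ s ∣ q ^ 2 ^ i + 1 ∧ s ∣ orderOf x) →
    ∃ j, orderOf x ∣ p ^ j * (q ^ 2 ^ k - 1)
  /-- the primes -/
  pr : ∀ r : ℕ, r.Prime → r ∣ Nat.card S → r = p ∨ ∃ i, 1 ≤ i ∧ i ≤ 2 ^ k ∧ r ∣ q ^ (2 * i) - 1
  /-- two further odd primes, not adjacent in the prime graph -/
  coc : ∃ a b : ℕ, a.Prime ∧ b.Prime ∧ a ≠ 2 ∧ b ≠ 2 ∧ a ≠ b ∧ ¬ a ∣ mn q k ∧ ¬ b ∣ mn q k ∧ a ∣ Nat.card S ∧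
    b ∣ Nat.card S ∧ ¬ ∃ x : S, orderOf x = a * b
  not_psl2 : ∀ (F : Type) [Field F] [Fintype F], IsEmpty (S ≃* Matrix.ProjectiveSpecialLinearGroup (Fin 2) F)

section Num

variable {q k : ℕ}

theorem pow_eq (hk : 2 ≤ k) (q : ℕ) : (q ^ 2 ^ (k - 2)) ^ 4 = q ^ 2 ^ k := by
  obtain ⟨j, rfl⟩ : ∃ j, k = j + 2 := ⟨k - 2, by omega⟩
  rw [← pow_mul, Nat.add_sub_cancel, pow_add]
  norm_num

theorem mn_eq (hk : 2 ≤ k) (q : ℕ) : mn q k = mm (q ^ 2 ^ (k - 2)) := by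
  rw [mn, mm, pow_eq hk]

theorem two_mn (hk : 2 ≤ k) (hq : Odd q) : 2 * mn q k = q ^ 2 ^ k + 1 := by
  rw [mn_eq hk, two_mm hq.pow, pow_eq hk]

theorem two_mn_sub (hk : 2 ≤ k) (hq : Odd q) : 2 * (mn q k - 1) = q ^ 2 ^ k - 1 := by
  have := two_mn hk hq
  omega

/-- `(q ^ n - 1) / 2` -/
theorem half_mn (hk : 2 ≤ k) (hq : Odd q) : (q ^ 2 ^ k - 1) / 2 = mn q k - 1 := by
  have := two_mn_sub hk hq
  omega

theorem mn_ge (hk : 3 ≤ k) (hq : 3 ≤ q) : 3281 ≤ mn q k := by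
  have h1 : 3 ^ 8 ≤ q ^ 8 := Nat.pow_le_pow_left hq 8
  have h2 : q ^ 8 ≤ q ^ 2 ^ k := by
    apply Nat.pow_le_pow_right (by omega)
    calc 8 = 2 ^ 3 := by norm_num
      _ ≤ 2 ^ k := Nat.pow_le_pow_right (by norm_num) hk
  unfold mn
  omega

end Num

section

variable {p q k : ℕ} {S : Type*} [Group S]

theorem TK.odd_p (h : TK p q k S) : Odd p := h.prime.odd_of_ne_two h.ne_two

theorem TK.odd (h : TK p q k S) : Odd q := by
  obtain ⟨f, -, rfl⟩ := h.pow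
  exact h.odd_p.pow

theorem TK.hk2 (h : TK p q k S) : 2 ≤ k := by
  have := h.hk
  omega

theorem TK.dvd (h : TK p q k S) : p ∣ q := by
  obtain ⟨f, hf, rfl⟩ := h.pow
  exact dvd_pow_self p (by rintro rfl; exact absurd hf (by decide))

theorem TK.three_le_p (h : TK p q k S) : 3 ≤ p := by
  have := h.prime.two_le
  have := h.ne_two
  omega

theorem TK.three_le (h : TK p q k S) : 3 ≤ q :=
  h.three_le_p.trans (Nat.le_of_dvd h.odd.pos h.dvd)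

/-- the number to which the lemmas of `H202/T/Num` apply -/
theorem TK.odd_Q (h : TK p q k S) : Odd (q ^ 2 ^ (k - 2)) := h.odd.pow

theorem TK.nine_le_Q (h : TK p q k S) : 9 ≤ q ^ 2 ^ (k - 2) := by
  have h1 : 3 ^ 2 ≤ q ^ 2 := Nat.pow_le_pow_left h.three_le 2
  have h2 : q ^ 2 ≤ q ^ 2 ^ (k - 2) := by
    apply Nat.pow_le_pow_right (by have := h.three_le; omega)
    calc 2 = 2 ^ 1 := by norm_num
      _ ≤ 2 ^ (k - 2) := Nat.pow_le_pow_right (by norm_num) (by have := h.hk; omega)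
  omega

theorem TK.mn_eq (h : TK p q k S) : mn q k = mm (q ^ 2 ^ (k - 2)) := Cfsg.Agent.H202.TP.mn_eq h.hk2 q

theorem TK.mn_ge (h : TK p q k S) : 3281 ≤ mn q k := Cfsg.Agent.H202.TP.mn_ge h.hk h.three_le

theorem TK.mn_mod (h : TK p q k S) : mn q k % 8 = 1 := by
  rw [h.mn_eq]
  exact mm_mod h.odd_Q

theorem TK.ne_two_of_dvd (h : TK p q k S) {r : ℕ} (hr : r ∣ mn q k) : r ≠ 2 := by
  rintro rfl
  have := h.mn_mod
  omega

/-- the prime divisors of `mn q k` are congruent to 1 modulo 8 -/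
theorem TK.mod_eight (h : TK p q k S) {r : ℕ} (hr : r.Prime) (hrm : r ∣ mn q k) : r % 8 = 1 := by
  rw [h.mn_eq] at hrm
  exact Cfsg.Agent.H202.T.mod_eight h.odd_Q hr hrm

theorem TK.not_two_pow (h : TK p q k S) (a : ℕ) : mn q k ≠ 2 ^ a + 1 := by
  rw [h.mn_eq]
  exact Cfsg.Agent.H202.T.not_two_pow h.odd_Q (by have := h.nine_le_Q; omega) a

theorem TK.prime_power (h : TK p q k S) {X : ℕ} (hX : IsPrimePow X)
    (hm : mn q k = X * (X + 1) + 1 ∨ mn q k = X * (X - 1) + 1) : False := by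
  rw [h.mn_eq] at hm
  exact Cfsg.Agent.H202.T.prime_power h.odd_Q (by have := h.nine_le_Q; omega) hX hm

theorem TK.dvd_card (h : TK p q k S) : mn q k ∣ Nat.card S := by
  obtain ⟨x, hx⟩ := h.mem
  rw [← hx]
  exact orderOf_dvd_natCard x

theorem TK.congr {H : Type*} [Group H] (h : TK p q k S) (e : S ≃* H) : TK p q k H where
  prime := h.prime
  ne_two := h.ne_two
  pow := h.pow
  hk := h.hk
  mem := by
    obtain ⟨x, hx⟩ := h.mem
    exact ⟨e x, by rw [MulEquiv.orderOf_eq, hx]⟩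
  iso := fun r x => by rw [← MulEquiv.orderOf_eq e.symm x]; exact h.iso r _
  two := fun j x => by rw [← MulEquiv.orderOf_eq e.symm x]; exact h.two j _
  tor := fun x => by rw [← MulEquiv.orderOf_eq e.symm x]; exact h.tor _
  pr := by rw [← Nat.card_congr e.toEquiv]; exact h.pr
  coc := by
    obtain ⟨a, b, h1, h2, h3, h4, h5, h6, h7, h8, h9, h10⟩ := h.coc
    refine ⟨a, b, h1, h2, h3, h4, h5, h6, h7, by rwa [← Nat.card_congr e.toEquiv], by rwa [← Nat.card_congr e.toEquiv],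
      ?_⟩
    rintro ⟨x, hx⟩
    exact h10 ⟨e.symm x, by rw [MulEquiv.orderOf_eq, hx]⟩
  not_psl2 := fun F _ _ => ⟨fun f => (h.not_psl2 F).false (e.trans f)⟩

/-- the torus, with the power of 2: the order divides `p ^ j (q ^ n - 1) / 2` -/
theorem TK.tor' (h : TK p q k S) (x : S)
    (hx : ∀ i, 1 ≤ i → i < k → ∃ s, s.Prime ∧ s ≠ 2 ∧ s ∣ q ^ 2 ^ i + 1 ∧ s ∣ orderOf x) :
    ∃ j, orderOf x ∣ p ^ j * (mn q k - 1) := by
  obtain ⟨j, hj⟩ := h.tor x hx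
  refine ⟨j, ?_⟩
  rcases Nat.eq_zero_or_pos (orderOf x) with h0 | h0
  · rw [h0] at hj
    have h1 : p ^ j * (q ^ 2 ^ k - 1) = 0 := Nat.eq_zero_of_zero_dvd hj
    rw [← two_mn_sub h.hk2 h.odd] at h1
    have h2 := h.mn_ge
    have h3 : 0 < p ^ j := pow_pos h.prime.pos j
    exfalso
    have : 0 < p ^ j * (2 * (mn q k - 1)) := Nat.mul_pos h3 (by omega)
    omega
  · obtain ⟨b, N, hN, hbN⟩ := Nat.exists_eq_two_pow_mul_odd h0.ne'
    rw [← two_mn_sub h.hk2 h.odd] at hj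
    rw [hbN]
    apply Nat.Coprime.mul_dvd_of_dvd_of_dvd (Nat.Coprime.pow_left b (Nat.coprime_two_left.2 hN))
    · exact (h.two b x (by rw [hbN]; exact dvd_mul_right _ _)).mul_left _
    · have h1 : N ∣ 2 * (p ^ j * (mn q k - 1)) := by
        refine ((dvd_mul_left N (2 ^ b)).trans (hbN ▸ hj)).trans ?_
        exact ⟨1, by ring⟩
      exact (Nat.coprime_two_left.2 hN).symm.dvd_of_dvd_mul_left h1

/-- the torus, for elements of order prime to `p` -/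
theorem TK.tor_coprime (h : TK p q k S) {x : S} (hp : ¬ p ∣ orderOf x)
    (hx : ∀ i, 1 ≤ i → i < k → ∃ s, s.Prime ∧ s ≠ 2 ∧ s ∣ q ^ 2 ^ i + 1 ∧ s ∣ orderOf x) :
    orderOf x ∣ mn q k - 1 := by
  obtain ⟨j, hj⟩ := h.tor' x hx
  exact (Nat.Coprime.pow_right j ((h.prime.coprime_iff_not_dvd).2 hp).symm).dvd_of_dvd_mul_left hj

/-- every number `q ^ 2 ^ i + 1`, `1 ≤ i < k`, has an odd prime divisor, and it divides `(q ^ n - 1) / 2` -/
theorem exists_prime_level (hq : Odd q) (hq3 : 3 ≤ q) {i : ℕ} (hi : 1 ≤ i) (hik : i < k) :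
    ∃ s, s.Prime ∧ s ≠ 2 ∧ s ∣ q ^ 2 ^ i + 1 ∧ s ∣ mn q k - 1 := by
  have h1 : q ^ 2 ^ i % 4 = 1 := by
    obtain ⟨j, rfl⟩ : ∃ j, i = j + 1 := ⟨i - 1, by omega⟩
    rw [pow_succ 2 j, mul_comm (2 ^ j), pow_mul, Nat.pow_mod]
    have : q ^ 2 % 4 = 1 := by
      obtain ⟨c, rfl⟩ := hq
      have : (2 * c + 1) ^ 2 = 4 * (c ^ 2 + c) + 1 := by ring
      omega
    rw [this]
    simp
  have h9 : 9 ≤ q ^ 2 ^ i := by
    calc 9 = 3 ^ 2 := by norm_num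
      _ ≤ q ^ 2 := Nat.pow_le_pow_left hq3 2
      _ ≤ q ^ 2 ^ i := by
        apply Nat.pow_le_pow_right (by omega)
        calc 2 = 2 ^ 1 := by norm_num
          _ ≤ 2 ^ i := Nat.pow_le_pow_right (by norm_num) hi
  obtain ⟨c, hc⟩ : ∃ c, q ^ 2 ^ i + 1 = 2 * c := ⟨(q ^ 2 ^ i + 1) / 2, by omega⟩
  have hco : Odd c := by
    rw [Nat.odd_iff]
    omega
  obtain ⟨s, hs, hsc⟩ := Nat.exists_prime_and_dvd (n := c) (by omega)
  have hs2 : s ≠ 2 := by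
    rintro rfl
    exact (Nat.not_even_iff_odd.2 hco) (even_iff_two_dvd.2 hsc)
  have h2 : s ∣ q ^ 2 ^ i + 1 := by rw [hc]; exact hsc.mul_left 2
  refine ⟨s, hs, hs2, h2, ?_⟩
  have hk2 : 2 ≤ k := by omega
  have h3 : s ∣ q ^ 2 ^ k - 1 := by
    have h4 : q ^ 2 ^ i + 1 ∣ q ^ 2 ^ (i + 1) - 1 := by
      refine ⟨q ^ 2 ^ i - 1, ?_⟩
      have := Nat.sq_sub_sq (q ^ 2 ^ i) 1
      rw [← pow_mul, ← pow_succ] at this
      simpa using this
    have h5 : q ^ 2 ^ (i + 1) - 1 ∣ q ^ 2 ^ k - 1 := by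
      obtain ⟨d, rfl⟩ : ∃ d, k = i + 1 + d := ⟨k - (i + 1), by omega⟩
      rw [pow_add 2 (i + 1) d, pow_mul]
      simpa using Nat.sub_dvd_pow_sub_pow (q ^ 2 ^ (i + 1)) 1 (2 ^ d)
    exact h2.trans (h4.trans h5)
  rw [← two_mn_sub hk2 hq] at h3
  exact (hs.dvd_mul.1 h3).resolve_left fun h => hs2 ((Nat.prime_dvd_prime_iff_eq hs Nat.prime_two).1 h)

/-- if every odd prime divisor of `(q ^ n - 1) / 2` divides the order, then the order divides `p ^ j (q ^ n - 1) / 2` -/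
theorem TK.tor_all (h : TK p q k S) (x : S) (hx : ∀ s : ℕ, s.Prime → s ≠ 2 → s ∣ mn q k - 1 → s ∣ orderOf x) :
    ∃ j, orderOf x ∣ p ^ j * (mn q k - 1) :=
  h.tor' x fun i hi hik => by
    obtain ⟨s, hs, hs2, hsd, hsm⟩ := exists_prime_level (k := k) h.odd h.three_le hi hik
    exact ⟨s, hs, hs2, hsd, hx s hs hs2 hsm⟩

end

end Cfsg.Agent.H202.TP
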